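import Mathlib
import Cfsg.Prelude.Def_Solvable
import Cfsg.Prelude.Def_Transfer

/-!
# S4415 (Thompson, N-groups: solvable group on an F_3-module with a cubic rank-two 3-element)

Interface file of the team project.  Only definitions and package statements (`Prop`s).
Mathlib's `⁅g, h⁆ = g * h * g⁻¹ * h⁻¹`.
-/

set_option autoImplicit false

namespace Cfsg.Agent.Lib.Helper78.S4415

universe u v

/-- `b - 1` has rank two and `(b - 1)^2 ≠ 0`: there is `v` with `(b-1)^2 v ≠ 0` and the image of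
`b - 1` is spanned by `(b-1) v` and `(b-1)^2 v`. -/
def Jordan {G : Type u} [Group G] {V : Type v} [AddCommGroup V] [Module (ZMod 3) V]
    (ρ : Representation (ZMod 3) G V) (b : G) : Prop :=
  ∃ v : V, ρ b (ρ b v - v) - (ρ b v - v) ≠ 0 ∧
    ∀ x : V, ∃ a c : ZMod 3,
      ρ b x - x = a • (ρ b v - v) + c • (ρ b (ρ b v - v) - (ρ b v - v))

/-- The abstract setting of part II: `G = R⟨b⟩` acts faithfully and irreducibly on `V`. -/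
structure Setup {G : Type u} [Group G] [Finite G] {V : Type v} [AddCommGroup V]
    [Module (ZMod 3) V] [Finite V]
    (ρ : Representation (ZMod 3) G V) (R : Subgroup G) (b : G) (Q : Subgroup G) : Prop where
  faith : Function.Injective ρ
  irr : ∀ N : Submodule (ZMod 3) V, (∀ g : G, ∀ v ∈ N, ρ g v ∈ N) → N = ⊥ ∨ N = ⊤
  normal : R.Normal
  cop : (Nat.card R).Coprime 3
  solv : Group.IsSolvable R
  b3 : b ^ 3 = 1
  gen : R ⊔ Subgroup.zpowers b = ⊤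
  comm : ⁅R, Subgroup.zpowers b⁆ = R
  QR : Q ≤ R
  Q4 : Nat.card Q = 4
  Q2 : ∀ q ∈ Q, q * q = 1
  Qnorm : ∀ q ∈ Q, b * q * b⁻¹ ∈ Q
  Qmove : ∃ q ∈ Q, b * q * b⁻¹ ≠ q
  jordan : Jordan ρ b

/-- The weight frame of the four-group `Q = {1, q₁, q₂, q₁q₂}`:
`V = C_V(Q) ⊕ ⟨w₁⟩ ⊕ ⟨w₂⟩ ⊕ ⟨w₃⟩`, `b` permutes `w₁ → w₂ → w₃ → w₁` and fixes `C_V(Q)` pointwise. -/
def Frame {G : Type u} [Group G] {V : Type v} [AddCommGroup V] [Module (ZMod 3) V]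
    (ρ : Representation (ZMod 3) G V) (b : G) (Q : Subgroup G) : Prop :=
  ∃ (q₁ q₂ : G) (w₁ w₂ w₃ : V),
    q₁ ∈ Q ∧ q₂ ∈ Q ∧ q₁ ≠ 1 ∧ q₂ ≠ 1 ∧ q₁ ≠ q₂ ∧ q₁ * q₂ = q₂ * q₁ ∧
    (∀ q ∈ Q, q = 1 ∨ q = q₁ ∨ q = q₂ ∨ q = q₁ * q₂) ∧
    b * q₁ * b⁻¹ = q₂ ∧ b * q₂ * b⁻¹ = q₁ * q₂ ∧
    ρ b w₁ = w₂ ∧ ρ b w₂ = w₃ ∧ ρ b w₃ = w₁ ∧ w₁ ≠ 0 ∧
    ρ q₁ w₁ = w₁ ∧ ρ q₁ w₂ = -w₂ ∧ ρ q₁ w₃ = -w₃ ∧
    ρ q₂ w₁ = -w₁ ∧ ρ q₂ w₂ = w₂ ∧ ρ q₂ w₃ = -w₃ ∧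
    (∀ x : V, ∃ (c : V) (a₁ a₂ a₃ : ZMod 3),
      x = c + a₁ • w₁ + a₂ • w₂ + a₃ • w₃ ∧ ρ q₁ c = c ∧ ρ q₂ c = c ∧ ρ b c = c) ∧
    (∀ (c : V) (a₁ a₂ a₃ : ZMod 3), ρ q₁ c = c → ρ q₂ c = c →
      c + a₁ • w₁ + a₂ • w₂ + a₃ • w₃ = 0 → c = 0 ∧ a₁ = 0 ∧ a₂ = 0 ∧ a₃ = 0)

/-- `N` is "of extraspecial type" with centre `{1, z}`, `z = -1` on `V`, not centralized by `b`. -/
def ExtraType {G : Type u} [Group G] {V : Type v} [AddCommGroup V] [Module (ZMod 3) V]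
    (ρ : Representation (ZMod 3) G V) (N : Subgroup G) (z : G) (b : G) : Prop :=
  z ∈ N ∧ z ≠ 1 ∧ (∀ v : V, ρ z v = -v) ∧
    (∀ x ∈ N, x * x = 1 ∨ x * x = z) ∧
    (∀ x ∈ N, ∀ y ∈ N, x * y = y * x ∨ x * y = z * y * x) ∧
    (∀ x ∈ N, (∀ y ∈ N, x * y = y * x) → x = 1 ∨ x = z) ∧
    (∃ x ∈ N, b * x ≠ x * b)

/-- `R` has order 32, centre `{1, z}` with `z = -1` on `V`, squares and commutators in `{1, z}`. -/
def Extra {G : Type u} [Group G] {V : Type v} [AddCommGroup V] [Module (ZMod 3) V]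
    (ρ : Representation (ZMod 3) G V) (R : Subgroup G) (z : G) : Prop :=
  z ∈ R ∧ (∀ v : V, ρ z v = -v) ∧ Nat.card ↥R = 32 ∧
    (∀ x ∈ R, x * x = 1 ∨ x * x = z) ∧
    (∀ x ∈ R, ∀ y ∈ R, x * y = y * x ∨ x * y = z * y * x) ∧
    (∀ x ∈ R, (∀ y ∈ R, x * y = y * x) → x = 1 ∨ x = z)

/-- The group-theoretic conclusion of S4415 for a subgroup `R`. -/
def Concl {G : Type u} [Group G] (R : Subgroup G) : Prop :=
  (Cfsg.IsElementaryAbelian 2 R ∧ Nat.card ↥R = 4) ∨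
    (Cfsg.IsExtraspecial 2 ↥R ∧ Nat.card ↥R = 32 ∧
      ∃ A : Subgroup G, A ≤ R ∧ Cfsg.IsElementaryAbelian 2 A ∧ Nat.card ↥A = 8)

/-! ## Top-level packages -/

/-- [FRAME] weight decomposition for the four-group `Q` (no irreducibility, no `R`). -/
def PkgFrame : Prop :=
  ∀ {G : Type u} [Group G] [Finite G] {V : Type v} [AddCommGroup V] [Module (ZMod 3) V] [Finite V]
    (ρ : Representation (ZMod 3) G V) (b : G) (Q : Subgroup G),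
    Function.Injective ρ → b ^ 3 = 1 → Nat.card Q = 4 → (∀ q ∈ Q, q * q = 1) →
    (∀ q ∈ Q, b * q * b⁻¹ ∈ Q) → (∃ q ∈ Q, b * q * b⁻¹ ≠ q) → Jordan ρ b → Frame ρ b Q

/-- [CENTRAL] a central element of `G` is `1` or acts as `-1`. -/
def PkgCentral : Prop :=
  ∀ {G : Type u} [Group G] [Finite G] {V : Type v} [AddCommGroup V] [Module (ZMod 3) V] [Finite V]
    (ρ : Representation (ZMod 3) G V) (R : Subgroup G) (b : G) (Q : Subgroup G),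
    Setup ρ R b Q → ∀ c : G, (∀ g : G, c * g = g * c) → c = 1 ∨ ∀ v : V, ρ c v = -v

/-- [NORMCENT] a normal subgroup of `G` centralized by `b` is central. -/
def PkgNormCent : Prop :=
  ∀ {G : Type u} [Group G] [Finite G] {V : Type v} [AddCommGroup V] [Module (ZMod 3) V] [Finite V]
    (ρ : Representation (ZMod 3) G V) (R : Subgroup G) (b : G) (Q : Subgroup G),
    Setup ρ R b Q → ∀ M : Subgroup G, M.Normal → (∀ x ∈ M, b * x = x * b) →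
      ∀ x ∈ M, ∀ g : G, x * g = g * x

/-- [DICH] a minimal normal subgroup of `G` inside `R` not centralized by `b` is elementary abelian
or of extraspecial type. -/
def PkgDich : Prop :=
  ∀ {G : Type u} [Group G] [Finite G] {V : Type v} [AddCommGroup V] [Module (ZMod 3) V] [Finite V]
    (ρ : Representation (ZMod 3) G V) (R : Subgroup G) (b : G) (Q : Subgroup G),
    Setup ρ R b Q →
    (∀ c : G, (∀ g : G, c * g = g * c) → c = 1 ∨ ∀ v : V, ρ c v = -v) →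
    (∀ M : Subgroup G, M.Normal → (∀ x ∈ M, b * x = x * b) → ∀ x ∈ M, ∀ g : G, x * g = g * x) →
    (∃ (N : Subgroup G) (p : ℕ), N ≤ R ∧ N.Normal ∧ (∃ x ∈ N, b * x ≠ x * b) ∧
        (∀ x ∈ N, ∀ y ∈ N, x * y = y * x) ∧ p.Prime ∧ ∀ x ∈ N, x ^ p = 1) ∨
      (∃ (N : Subgroup G) (z : G), N ≤ R ∧ N.Normal ∧ ExtraType ρ N z b)

/-- [ODD] a normal elementary abelian `p`-subgroup, `p` odd, inside `R` is centralized by `b`. -/
def PkgOdd : Prop :=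
  ∀ {G : Type u} [Group G] [Finite G] {V : Type v} [AddCommGroup V] [Module (ZMod 3) V] [Finite V]
    (ρ : Representation (ZMod 3) G V) (R : Subgroup G) (b : G) (Q : Subgroup G),
    Setup ρ R b Q → Frame ρ b Q → ∀ (N : Subgroup G) (p : ℕ), N ≤ R → N.Normal →
      (∀ x ∈ N, ∀ y ∈ N, x * y = y * x) → p.Prime → p ≠ 2 → (∀ x ∈ N, x ^ p = 1) →
      ∀ x ∈ N, b * x = x * b

/-- [MON] the monomial case. -/
def PkgMon : Prop :=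
  ∀ {G : Type u} [Group G] [Finite G] {V : Type v} [AddCommGroup V] [Module (ZMod 3) V] [Finite V]
    (ρ : Representation (ZMod 3) G V) (R : Subgroup G) (b : G) (Q : Subgroup G),
    Setup ρ R b Q → Frame ρ b Q → ∀ N : Subgroup G, N ≤ R → N.Normal →
      (∀ x ∈ N, ∀ y ∈ N, x * y = y * x) → (∀ x ∈ N, x ^ 2 = 1) → (∃ x ∈ N, b * x ≠ x * b) →
      (Cfsg.IsElementaryAbelian 2 R ∧ Nat.card ↥R = 4) ∨ ∃ z : G, Extra ρ R z

/-- [EXT] the extraspecial case. -/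
def PkgExt : Prop :=
  ∀ {G : Type u} [Group G] [Finite G] {V : Type v} [AddCommGroup V] [Module (ZMod 3) V] [Finite V]
    (ρ : Representation (ZMod 3) G V) (R : Subgroup G) (b : G) (Q : Subgroup G),
    Setup ρ R b Q → Frame ρ b Q → ∀ (N : Subgroup G) (z : G), N ≤ R → N.Normal →
      ExtraType ρ N z b → Extra ρ R z

/-- [FIN] `Extra` gives the second alternative. -/
def PkgFin : Prop :=
  ∀ {G : Type u} [Group G] [Finite G] {V : Type v} [AddCommGroup V] [Module (ZMod 3) V] [Finite V]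
    (ρ : Representation (ZMod 3) G V) (R : Subgroup G) (b : G) (Q : Subgroup G),
    Setup ρ R b Q → Frame ρ b Q → ∀ z : G, Extra ρ R z → Concl R

/-- [ABS] the abstract structure theorem (assembled in `Main.lean`). -/
def PkgAbs : Prop :=
  ∀ {G : Type u} [Group G] [Finite G] {V : Type v} [AddCommGroup V] [Module (ZMod 3) V] [Finite V]
    (ρ : Representation (ZMod 3) G V) (R : Subgroup G) (b : G) (Q : Subgroup G),
    Setup ρ R b Q → Concl R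

/-- [RED] the reduction of S4415 to the abstract structure theorem. -/
def PkgRed : Prop :=
  PkgAbs.{u, v} →
  ∀ {S : Type u} [Group S] [Finite S]
    [Group.IsSolvable S] {E : Type v} [AddCommGroup E] [Module (ZMod 3) E] [Finite E] (ρ : Representation (ZMod 3) S E)
    (_hfaith : Function.Injective ρ) (_hO3 : Cfsg.pCore 3 S = ⊥)
    (B : Subgroup S) (_hB : Nat.card ↥B = 3) (b : S) (_hb : Subgroup.zpowers b = B)
    (E₀ E₁ : Submodule (ZMod 3) E) (_hE01 : E₀ ⊓ E₁ = ⊥) (_hE01' : E₀ ⊔ E₁ = ⊤)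
    (_hE1 : ∀ v ∈ E₁, ρ b v = v) (_hE0inv : ∀ v ∈ E₀, ρ b v ∈ E₀) (_hE0 : Nat.card ↥E₀ = 27)
    (_hind : ∃ v ∈ E₀, ρ b (ρ b v - v) - (ρ b v - v) ≠ 0)
    (Q : Subgroup S) (_hQ : Cfsg.IsElementaryAbelian 2 Q) (_hQ4 : Nat.card ↥Q = 4)
    (_hBQ : B ≤ Subgroup.normalizer (Q : Set S)) (_hBQ' : ¬ B ≤ Subgroup.centralizer (Q : Set S))
    (P : Sylow 3 S) (_hBZ : (Subgroup.center ↥(P : Subgroup S)).map (P : Subgroup S).subtype = B),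
    ((Cfsg.IsElementaryAbelian 2 ⁅Cfsg.pPrimeCore 3 S, B⁆ ∧ Nat.card ↥⁅Cfsg.pPrimeCore 3 S, B⁆ = 4) ∨
      (Cfsg.IsExtraspecial 2 ↥⁅Cfsg.pPrimeCore 3 S, B⁆ ∧ Nat.card ↥⁅Cfsg.pPrimeCore 3 S, B⁆ = 32 ∧
        ∃ A : Subgroup S, A ≤ ⁅Cfsg.pPrimeCore 3 S, B⁆ ∧ Cfsg.IsElementaryAbelian 2 A ∧ Nat.card ↥A = 8)) ∧
    ∃ F₀ F₁ : Submodule (ZMod 3) E, F₀ ⊓ F₁ = ⊥ ∧ F₀ ⊔ F₁ = ⊤ ∧
      (∀ r ∈ ⁅Cfsg.pPrimeCore 3 S, B⁆, ∀ v ∈ F₁, ρ r v = v) ∧ (∀ r ∈ ⁅Cfsg.pPrimeCore 3 S, B⁆ ⊔ B, ∀ v ∈ F₀, ρ r v ∈ F₀) ∧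
      (∀ r ∈ ⁅Cfsg.pPrimeCore 3 S, B⁆ ⊔ B, (∀ v ∈ F₀, ρ r v = v) → r = 1) ∧
      (∀ N : Submodule (ZMod 3) E, N ≤ F₀ → (∀ r ∈ ⁅Cfsg.pPrimeCore 3 S, B⁆ ⊔ B, ∀ v ∈ N, ρ r v ∈ N) → N = ⊥ ∨ N = F₀)

end Cfsg.Agent.Lib.Helper78.S4415
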