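import Cfsg.Agent.Lib.Helper78.S4415.Defs

/-!
# S4415: assembly of the abstract structure theorem from the top-level packages
-/

set_option autoImplicit false

namespace Cfsg.Agent.Lib.Helper78.S4415

universe u v

theorem pkgAbs_of (hF : PkgFrame.{u, v}) (hC : PkgCentral.{u, v}) (hNC : PkgNormCent.{u, v})
    (hD : PkgDich.{u, v}) (hO : PkgOdd.{u, v}) (hM : PkgMon.{u, v}) (hE : PkgExt.{u, v})
    (hFin : PkgFin.{u, v}) : PkgAbs.{u, v} := by
  intro G _ _ V _ _ _ ρ R b Q hS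
  have hfr : Frame ρ b Q :=
    hF ρ b Q hS.faith hS.b3 hS.Q4 hS.Q2 hS.Qnorm hS.Qmove hS.jordan
  rcases hD ρ R b Q hS (hC ρ R b Q hS) (hNC ρ R b Q hS) with
    ⟨N, p, hNR, hNn, hmove, hab, hp, hexp⟩ | ⟨N, z, hNR, hNn, hX⟩
  · by_cases hp2 : p = 2
    · subst hp2
      rcases hM ρ R b Q hS hfr N hNR hNn hab hexp hmove with h | ⟨z, hz⟩
      · exact Or.inl h
      · exact hFin ρ R b Q hS hfr z hz
    · exfalso
      obtain ⟨x, hx, hxb⟩ := hmove
      exact hxb (hO ρ R b Q hS hfr N p hNR hNn hab hp hp2 hexp x hx)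
  · exact hFin ρ R b Q hS hfr z (hE ρ R b Q hS hfr N z hNR hNn hX)

end Cfsg.Agent.Lib.Helper78.S4415
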